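import Cfsg.Agent.Char.Misc
import Cfsg.Agent.Small.Princ
import Cfsg.Agent.S4456

/-! An element seen by one non-linear character: the character computations (`chars`), and the normal
`p`-complement of a group with a class containing a coset (`npc`). -/

set_option autoImplicit false
set_option linter.unusedVariables false

namespace Cfsg.Agent.Vz
open Cfsg.Agent.Char
open scoped ComplexConjugate commutatorElement

variable {G : Type*} [Group G] [Finite G]

open _root_.Classical in
theorem sum_lin (x : G) :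
    ∑ ψ ∈ Finset.univ.filter (fun ψ : IrrCharacter G => ∀ n ∈ commutator G, ψ.1 n = ψ.1 1), ψ.1 1 * ψ.1 x =
      if x ∈ commutator G then ((commutator G).index : ℂ) else 0 := by
  rw [sum_irr_filter_ker (commutator G) (fun ψ => ψ 1 * ψ x)]
  have := sum_irr_degree_mul_eq_ite (G := G ⧸ commutator G) (x : G ⧸ commutator G)
  simp only [QuotientGroup.eq_one_iff] at this
  exact this

theorem deg_one {ψ : IrrCharacter G} : charDegree ψ.1 = 1 ↔ ψ.1 1 = 1 := by
  rw [IsIrrCharacter.apply_one_eq_charDegree ψ.2, Nat.cast_eq_one]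

open _root_.Classical in
theorem split (g : G) (χ : IrrCharacter G) (hχ1 : charDegree χ.1 ≠ 1)
    (hother : ∀ ψ : IrrCharacter G, charDegree ψ.1 ≠ 1 → ψ ≠ χ → ψ.1 g = 0) (x : G) :
    ∑ ψ : IrrCharacter G, ψ.1 x * conj (ψ.1 g) =
      (if x * g⁻¹ ∈ commutator G then ((commutator G).index : ℂ) else 0) + χ.1 x * conj (χ.1 g) := by
  rw [← sum_lin, ← Finset.sum_filter_add_sum_filter_not Finset.univ
    (fun ψ : IrrCharacter G => ∀ n ∈ commutator G, ψ.1 n = ψ.1 1)]
  congr 1
  · refine Finset.sum_congr rfl fun ψ hψ => ?_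
    have h1 := (IsIrrCharacter.apply_one_eq_one_iff ψ.2).2 (Finset.mem_filter.1 hψ).2
    have h2 := IsIrrCharacter.isCharacter ψ.2
    rw [h1, one_mul, IsCharacter.map_mul_of_apply_one h2 h1, IsCharacter.apply_inv h2]
  · refine Finset.sum_eq_single_of_mem χ (Finset.mem_filter.2 ⟨Finset.mem_univ _, fun e => hχ1 ?_⟩) fun ψ hψ e => ?_
    · exact deg_one.2 ((IsIrrCharacter.apply_one_eq_one_iff χ.2).2 e)
    · rw [hother ψ (fun e' => (Finset.mem_filter.1 hψ).2
        ((IsIrrCharacter.apply_one_eq_one_iff ψ.2).1 (deg_one.1 e'))) e, map_zero, mul_zero]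

theorem chars (g : G) (hg : g ∉ Subgroup.center G) (χ : IrrCharacter G) (hχ1 : charDegree χ.1 ≠ 1) (hχg : χ.1 g ≠ 0)
    (hother : ∀ ψ : IrrCharacter G, charDegree ψ.1 ≠ 1 → ψ ≠ χ → ψ.1 g = 0) :
    g ∈ commutator G ∧ χ.1 g = -(((commutator G).index : ℂ) / χ.1 1) ∧
    ((commutator G : Set G) = {x : G | χ.1 x = χ.1 1} ∪ {h : G | IsConj g h}) ∧
    (∀ x : G, x ∉ commutator G → χ.1 x = 0) ∧
    (∀ ψ : IrrCharacter G, charDegree ψ.1 ≠ 1 → (∀ x : G, χ.1 x = χ.1 1 → ψ.1 x = ψ.1 1) → ψ = χ) ∧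
    g ∉ charKer χ.1 ∧ ∀ b : G, (∀ y, ⁅b, y⁆ ∈ charKer χ.1) → b ∈ commutator G := by
  classical
  have hc := IsIrrCharacter.isCharacter χ.2
  have n1 := IsIrrCharacter.apply_one_ne_zero χ.2
  have ng : conj (χ.1 g) ≠ 0 := by rwa [map_ne_zero]
  have ni : ((commutator G).index : ℂ) ≠ 0 := Nat.cast_ne_zero.2 Subgroup.index_ne_zero_of_finite
  have g1 : ¬ IsConj (1 : G) g := fun e => hg (isConj_one_right.1 e ▸ one_mem _)
  have e1 := split g χ hχ1 hother 1
  rw [sum_irr_mul_conj_of_not_isConj g1, one_mul, inv_mem_iff] at e1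
  have a1 : g ∈ commutator G := by
    by_contra h
    rw [if_neg h, zero_add] at e1
    exact mul_ne_zero n1 ng e1.symm
  rw [if_pos a1] at e1
  have e2 : conj (χ.1 g) = -(((commutator G).index : ℂ) / χ.1 1) := by
    field_simp
    linear_combination -e1
  have a2 : χ.1 g = -(((commutator G).index : ℂ) / χ.1 1) := by
    have := congrArg conj e2
    rwa [Complex.conj_conj, map_neg, map_div₀, IsCharacter.conj_apply_one hc, Complex.conj_natCast] at this
  have cj : ∀ x, IsConj g x → x ∈ commutator G := fun x hx => by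
    obtain ⟨c, rfl⟩ := isConj_iff.1 hx
    exact Subgroup.Normal.conj_mem inferInstance g a1 c
  have a4 : ∀ x : G, x ∉ commutator G → χ.1 x = 0 := fun x hx => by
    have e := split g χ hχ1 hother x
    rw [sum_irr_mul_conj_of_not_isConj (fun e => hx (cj x e.symm)),
      if_neg (fun e => hx ((Subgroup.mul_mem_cancel_right _ (inv_mem a1)).1 e)), zero_add] at e
    exact (mul_eq_zero.1 e.symm).resolve_right ng
  have a3 : ∀ x ∈ commutator G, ¬ IsConj g x → χ.1 x = χ.1 1 := fun x hx h => by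
    have e := split g χ hχ1 hother x
    rw [sum_irr_mul_conj_of_not_isConj (fun e => h e.symm), if_pos (mul_mem hx (inv_mem a1))] at e
    exact mul_right_cancel₀ ng (by linear_combination e1 - e)
  have k1 : ∀ x, χ.1 x = χ.1 1 → x ∈ commutator G := fun x hx => by
    by_contra h
    exact n1 (hx ▸ a4 x h)
  have gK : χ.1 g ≠ χ.1 1 := fun e => by
    rw [e, IsIrrCharacter.apply_one_eq_charDegree χ.2] at a2
    rw [IsIrrCharacter.apply_one_eq_charDegree χ.2] at n1
    have : ((charDegree χ.1 * charDegree χ.1 + (commutator G).index : ℕ) : ℂ) = 0 := by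
      push_cast
      field_simp at a2
      linear_combination a2
    exact ni (by exact_mod_cast (Nat.add_eq_zero_iff.1 (Nat.cast_eq_zero.1 this)).2)
  refine ⟨a1, a2, Set.ext fun x => ⟨fun hx => or_iff_not_imp_right.2 (a3 x hx), fun hx => hx.elim (k1 x) (cj x)⟩, a4,
    fun ψ h1 h2 => ?_, fun e => gK ((IsCharacter.mem_charKer hc).1 e), fun b hb => ?_⟩
  · by_contra hne
    have h0 := hother ψ h1 hne
    have := Fintype.ofFinite (commutator G)
    have s := IsIrrCharacter.sum_mul_eq_zero_of_normal ψ.2 (commutator G) (by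
      by_contra h
      push Not at h
      exact h1 (deg_one.2 ((IsIrrCharacter.apply_one_eq_one_iff ψ.2).2 h))) 1
    have s2 : ∀ n : commutator G, ψ.1 (1 * n) = if IsConj g n then 0 else ψ.1 1 := fun n => by
      rw [one_mul]
      split_ifs with h
      · rw [← IsClassFunction.apply_eq_of_isConj (IsIrrCharacter.isClassFunction ψ.2) h, h0]
      · exact h2 _ (a3 _ n.2 h)
    simp only [s2] at s
    rw [Finset.sum_ite, Finset.sum_const_zero, zero_add, Finset.sum_const, nsmul_eq_mul] at s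
    refine mul_ne_zero (Nat.cast_ne_zero.2 (Finset.card_ne_zero.2 ⟨1, Finset.mem_filter.2 ⟨Finset.mem_univ _, ?_⟩⟩))
      (IsIrrCharacter.apply_one_ne_zero ψ.2) s
    exact fun e => g1 e.symm
  · by_contra h
    have := Fintype.ofFinite G
    have s := IsIrrCharacter.sum_mul_conj_eq χ.2 b⁻¹ b
    rw [a4 b h, mul_zero, zero_div] at s
    have s2 : ∀ y, χ.1 (b⁻¹ * (y * b * y⁻¹)) = χ.1 1 := fun y => by
      refine (IsCharacter.mem_charKer hc).1 ?_
      have := (IsClassFunction.normal_charKer (IsIrrCharacter.isClassFunction χ.2)).conj_mem _ (inv_mem (hb y)) b⁻¹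
      convert this using 1
      rw [commutatorElement_def]
      group
    simp only [s2] at s
    rw [Finset.sum_const, nsmul_eq_mul] at s
    exact mul_ne_zero (Nat.cast_ne_zero.2 Fintype.card_ne_zero) n1 s

theorem npc {p : ℕ} (hp : p.Prime) (K : Subgroup G) [K.Normal] (hK : IsPGroup p (G ⧸ K)) {g : G}
    (hg : ∃ k, orderOf g = p ^ k) (h : ∀ n ∈ K, IsConj g (g * n)) :
    ∃ N : Subgroup G, N.Normal ∧ (Nat.card N).Coprime p ∧ ∃ k : ℕ, N.index = p ^ k := by
  refine S4456.result p hp fun χ h1 => ?_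
  by_cases h2 : ∃ n ∈ K, χ.1 n ≠ χ.1 1
  · exact Small.dvd_degree_of_apply_eq_zero (IsIrrCharacter.isCharacter χ.2) hp hg
      (IsIrrCharacter.apply_eq_zero_of_coset_conj χ.2 K h2 h)
  · push Not at h2
    obtain ⟨φ, h3, h4⟩ := IsIrrCharacter.exists_quotient χ.2 K h2
    have e : charDegree φ = charDegree χ.1 := by rw [charDegree, charDegree, ← h4 1]; rfl
    have := Fact.mk hp
    obtain ⟨n, hn⟩ := IsPGroup.iff_card.1 hK
    obtain ⟨k, -, hk⟩ := (Nat.dvd_prime_pow hp).1 (hn ▸ e ▸ IsIrrCharacter.charDegree_dvd_card h3)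
    rw [hk] at h1 ⊢
    exact dvd_pow_self p fun e => h1 (by rw [e, pow_zero])

end Cfsg.Agent.Vz
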