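import Cfsg.Agent.Vz.A
import Cfsg.Agent.Sig.G2a
import Cfsg.Agent.Sig.Sf5
import Cfsg.Agent.Gen.ThompsonNil

/-! Groups with `G' \ K` a single class: the top quotient (`TQ`), the normal `p`-complement (`npc'`). -/

set_option autoImplicit false
set_option linter.unusedVariables false
set_option linter.unusedSectionVars false

namespace Cfsg.Agent.Vz
open Subgroup Cfsg.Agent.BG
open scoped commutatorElement

/-- the non-identity elements of `M ≥ G'` form one class, of order `p`, and `Z(G) ≤ M` -/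
structure TQ {G : Type*} [Group G] (p : ℕ) (M : Subgroup G) : Prop where
  cm : ∀ a b : G, ⁅a, b⁆ ∈ M
  cl : ∀ x ∈ M, x ≠ 1 → ∀ y ∈ M, y ≠ 1 → IsConj x y
  ex : ∀ x ∈ M, x ^ p = 1
  ce : ∀ b : G, (∀ y : G, ⁅b, y⁆ = 1) → b ∈ M

variable {G : Type*} [Group G] [Finite G] {p : ℕ} [hp : Fact p.Prime] {M K C : Subgroup G} {g h x c : G}

namespace TQ
variable (t : TQ p M)
include t

theorem nm (y : G) (hx : x ∈ M) : y * x * y⁻¹ ∈ M := by
  have := mul_mem (t.cm y x) hx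
  rwa [commutatorElement_def, inv_mul_cancel_right] at this

theorem pg : IsPGroup p M := fun x => ⟨1, Subtype.ext (by simpa using t.ex x x.2)⟩

theorem ab : M ≤ C[M] := by
  intro x hx
  by_cases h1 : x = 1
  · exact h1 ▸ one_mem _
  have : Nontrivial M := ⟨⟨⟨x, hx⟩, 1, fun e => h1 (congrArg Subtype.val e)⟩⟩
  have := t.pg.center_nontrivial
  obtain ⟨⟨z, hz⟩, z1⟩ := exists_ne (1 : center M)
  obtain ⟨y, rfl⟩ := isConj_iff.1 (t.cl z z.2 (fun e => z1 (Subtype.ext (Subtype.ext e))) x hx h1)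
  refine mem_cent.2 fun a ha => ?_
  have e := congrArg Subtype.val (mem_center_iff.1 hz ⟨y⁻¹ * a * y⁻¹⁻¹, t.nm y⁻¹ ha⟩)
  simp only [coe_mul, inv_inv] at e
  calc a * (y * z * y⁻¹) = y * (y⁻¹ * a * y * z) * y⁻¹ := by group
    _ = _ := by rw [e]; group

theorem sw (c y : G) (hb : c * x * c⁻¹ ∈ C[M]) : c * (y * x * y⁻¹) * c⁻¹ = y * (c * x * c⁻¹) * y⁻¹ := by
  have h1 : y * (c * x * c⁻¹) * y⁻¹ ∈ C[M] := conj_mem_of_norm
    (cent_norm M (mem_norm_of_cj_le fun _ hz => by obtain ⟨a, ha, rfl⟩ := mem_cj'.1 hz; exact t.nm y ha)) hb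
  calc c * (y * x * y⁻¹) * c⁻¹ = ⁅c, y⁆ * (y * (c * x * c⁻¹) * y⁻¹) * ⁅c, y⁆⁻¹ := by
        rw [commutatorElement_def]; group
    _ = _ := by rw [mem_cent.1 h1 _ (t.cm c y), mul_inv_cancel_right]

theorem st (hx : x ∈ M) (h1 : x ≠ 1) (hc : c * x * c⁻¹ = x) : c ∈ C[M] := mem_cent.2 fun a ha => by
  by_cases h2 : a = 1
  · rw [h2, one_mul, mul_one]
  obtain ⟨y, rfl⟩ := isConj_iff.1 (t.cl x hx h1 a ha h2)
  have := t.sw c y (hc.symm ▸ t.ab hx)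
  rw [hc] at this
  rw [← mul_inv_eq_iff_eq_mul.1 this]

theorem pw (hc : c ∈ C[M]) : c ^ p ^ 2 = 1 := by
  have : c ^ p ∈ M := t.ce _ fun y => by
    rw [← commutatorElement_inv, PLocal.commElt_pow_right (mem_cent.1 hc _ (t.cm y c)), t.ex _ (t.cm y c), inv_one]
  rw [sq, pow_mul, t.ex _ this]

theorem sq1 (h2 : p ≠ 2) (hx : x ∈ M) (e : x = x⁻¹) : x = 1 := by
  obtain ⟨m, hm⟩ := hp.out.odd_of_ne_two h2
  have := t.ex x hx
  rwa [hm, pow_succ, pow_mul, sq, mul_eq_one_iff_eq_inv.2 e, one_pow, one_mul] at this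

theorem inv (hx : x ∈ M) (h1 : x ≠ 1) : ∃ h : G, ∀ a ∈ M, h * a * h⁻¹ = a⁻¹ := by
  obtain ⟨h, hh⟩ := isConj_iff.1 (t.cl x hx h1 x⁻¹ (inv_mem hx) (inv_ne_one.2 h1))
  refine ⟨h, fun a ha => ?_⟩
  by_cases h2 : a = 1
  · simp [h2]
  obtain ⟨y, rfl⟩ := isConj_iff.1 (t.cl x hx h1 a ha h2)
  rw [t.sw h y (hh.symm ▸ t.ab (inv_mem hx)), hh]
  group

theorem sc (h2 : p ≠ 2) (hh : ∀ a ∈ M, h * a * h⁻¹ = a⁻¹) (hc : c ∈ C[M]) : c ∈ M := by
  obtain ⟨m, hm⟩ := hp.out.odd_of_ne_two h2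
  obtain ⟨v, hv, e⟩ : ∃ v ∈ M, v * v = ⁅h, c⁆ := ⟨⁅h, c⁆ ^ (m + 1), pow_mem (t.cm h c) _, by
    rw [← pow_add, show m + 1 + (m + 1) = p + 1 by omega, pow_succ, t.ex _ (t.cm h c), one_mul]⟩
  have hb : v * c ∈ C[M] := mul_mem (t.ab hv) hc
  have e1 : h * (v * c) * h⁻¹ = v * c := by
    calc h * (v * c) * h⁻¹ = h * v * h⁻¹ * ⁅h, c⁆ * c := by rw [commutatorElement_def]; group
      _ = _ := by rw [hh v hv, ← e]; group
  refine (mul_mem_cancel_left hv).1 (t.ce _ fun y => ?_)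
  have e2 := t.sw h y (e1.symm ▸ hb)
  rw [e1] at e2
  rw [← commutatorElement_inv, inv_eq_one]
  refine t.sq1 h2 (t.cm _ _) ?_
  rw [← hh _ (t.cm _ _)]
  calc ⁅y, v * c⁆ = y * (v * c) * y⁻¹ * (v * c)⁻¹ := commutatorElement_def _ _
    _ = h * (y * (v * c) * y⁻¹) * h⁻¹ * (h * (v * c) * h⁻¹)⁻¹ := by rw [e2, e1]
    _ = _ := by rw [commutatorElement_def]; group

end TQ

theorem npc' [K.Normal] (hK : ∀ c ∈ C, ∃ k, c ^ p ^ k ∈ K) (hg : g ∈ C) (ho : ∃ k, orderOf g = p ^ k)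
    (h : ∀ n ∈ K, ∃ y ∈ C, y * g * y⁻¹ = g * n) : ∀ c ∈ C, ∃ k, c ^ p ^ k ∈ Op' p C := by
  obtain ⟨N, h1, h2, k, h3⟩ := npc (G := C) hp.out (K.subgroupOf C) (fun x => by
      obtain ⟨x, rfl⟩ := QuotientGroup.mk_surjective x
      obtain ⟨k, hk⟩ := hK x x.2
      exact ⟨k, by rw [← QuotientGroup.mk_pow, QuotientGroup.eq_one_iff]; exact hk⟩)
    (g := ⟨g, hg⟩) (by rwa [orderOf_mk]) fun n hn => by
      obtain ⟨y, hy, e⟩ := h n hn
      exact isConj_iff.2 ⟨⟨y, hy⟩, Subtype.ext e⟩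
  have l : N.map C.subtype ≤ Op' p C := by
    refine pcore_max ?_ (pgroup_map _ ((p'nat_coprime hp.out).2 h2))
    have := normal_map C.subtype (normal_top_iff.2 h1)
    rwa [map_subtype_top] at this
  exact fun c hc => ⟨k, l (mem_map_of_mem C.subtype (x := ⟨c, hc⟩ ^ p ^ k) (h3 ▸ N.pow_index_mem _))⟩

theorem sol_of {L : Subgroup G} [L.Normal] (hL : Group.IsSolvable L) (hC : commutator G ≤ C)
    (h : ∀ c ∈ C, ∃ k, c ^ p ^ k ∈ L) : Group.IsSolvable G := by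
  have h1 : IsPGroup p (C.map (QuotientGroup.mk' L)) := by
    rintro ⟨_, c, hc, rfl⟩
    obtain ⟨k, hk⟩ := h c hc
    exact ⟨k, Subtype.ext ((QuotientGroup.eq_one_iff (c ^ p ^ k)).2 hk)⟩
  have h2 := pgroup_sol h1
  have h3 : Group.IsSolvable (G ⧸ L) := by
    refine Group.isSolvable_of_ker_le_range (C.map (QuotientGroup.mk' L)).subtype Abelianization.of ?_
    rw [Abelianization.ker_of, range_subtype, commutator_def,
      ← map_top_of_surjective _ (QuotientGroup.mk'_surjective L), ← map_commutator]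
    exact map_mono hC
  exact Group.isSolvable_of_ker_le_range L.subtype (QuotientGroup.mk' L) (by rw [QuotientGroup.ker_mk', range_subtype])

end Cfsg.Agent.Vz
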